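import Mathlib

/-! The Weyl group of type `D₉` as signed permutations. -/

set_option autoImplicit false

namespace H10.K9
open Equiv Finset

abbrev I := Fin 9
abbrev Z2 := ZMod 2

theorem aa (a : Z2) : a + a = 0 := by revert a; decide
theorem ne0 {a : Z2} : a ≠ 0 ↔ a = 1 := by revert a; decide

@[ext] structure D where
  s : Perm I
  e : I → Z2
  h : ∑ i, e i = 0

namespace D
instance : Mul D := ⟨fun x y => ⟨x.s * y.s, fun i => y.e i + x.e (y.s i), by
  rw [sum_add_distrib, y.h, Equiv.sum_comp y.s x.e, x.h, add_zero]⟩⟩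
instance : One D := ⟨⟨1, fun _ => 0, by simp⟩⟩
instance : Inv D := ⟨fun x => ⟨x.s⁻¹, fun i => x.e (x.s⁻¹ i), by rw [Equiv.sum_comp x.s⁻¹ x.e, x.h]⟩⟩
@[simp] theorem mul_s (x y : D) : (x * y).s = x.s * y.s := rfl
@[simp] theorem mul_e (x y : D) (i : I) : (x * y).e i = y.e i + x.e (y.s i) := rfl
@[simp] theorem one_s : (1 : D).s = 1 := rfl
@[simp] theorem one_e (i : I) : (1 : D).e i = 0 := rfl
@[simp] theorem inv_s (x : D) : x⁻¹.s = x.s⁻¹ := rfl
@[simp] theorem inv_e (x : D) (i : I) : x⁻¹.e i = x.e (x.s⁻¹ i) := rfl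
theorem ext' {x y : D} (h1 : x.s = y.s) (h2 : ∀ i, x.e i = y.e i) : x = y := D.ext h1 (funext h2)
instance : Group D := Group.ofLeftAxioms
  (fun x y z => ext' (mul_assoc _ _ _) fun i => by simp [add_assoc])
  (fun x => ext' (one_mul _) fun i => by simp)
  (fun x => ext' (inv_mul_cancel _) fun i => by simp [aa])
instance : DecidableEq D := fun x y => decidable_of_iff (∀ i, x.s i = y.s i ∧ x.e i = y.e i)
  ⟨fun h => ext' (Equiv.ext fun i => (h i).1) fun i => (h i).2, fun h _ => h ▸ ⟨rfl, rfl⟩⟩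
end D

def eqD : D ≃ Perm I × {e : I → Z2 // ∑ i, e i = 0} :=
  ⟨fun x => (x.s, ⟨x.e, x.h⟩), fun p => ⟨p.1, p.2.1, p.2.2⟩, fun _ => rfl, fun _ => rfl⟩
instance : Finite D := Finite.of_equiv _ eqD.symm
theorem card_D : Nat.card D = 92897280 := by
  rw [Nat.card_congr eqD, Nat.card_prod, Nat.card_perm, Nat.card_eq_fintype_card (α := {_e // _}),
    show Fintype.card {e : I → Z2 // ∑ i, e i = 0} = 256 by decide +kernel, Nat.card_fin]
  rfl

def pm : Perm I →* D := MonoidHom.mk' (fun σ => ⟨σ, fun _ => 0, by simp⟩) fun _ _ => D.ext' rfl fun _ => by simp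
def sh : D →* Perm I := MonoidHom.mk' (·.s) fun _ _ => rfl
def vp (x : D) : D := ⟨1, x.e, x.h⟩
def v (i j : I) : D := ⟨1, fun k => (if k = i then 1 else 0) + (if k = j then 1 else 0), by
  simp [sum_add_distrib, aa]⟩
def sw (i j : I) : D := pm (swap i j)
def zk (k : I) : D := ⟨1, fun i => if i = k then 0 else 1, by revert k; decide⟩
def z0 : D := zk 8
def M (x : D) : Finset I := univ.filter fun i => x.s i ≠ i ∨ x.e i ≠ 0
def w (x : D) : ℕ := (M x).card
/-- conjugation by a sign change -/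
def tw (δ : I → Z2) : D →* D := MonoidHom.mk' (fun x => ⟨x.s, fun i => x.e i + δ i + δ (x.s i), by
  rw [sum_add_distrib, sum_add_distrib, Equiv.sum_comp x.s δ, x.h, zero_add, aa]⟩)
  fun x y => D.ext' rfl fun i => by
    simp only [D.mul_e, D.mul_s, Perm.mul_apply]
    linear_combination (exp := 1) -aa (δ (y.s i))

@[simp] theorem pm_s (σ : Perm I) : (pm σ).s = σ := rfl
@[simp] theorem pm_e (σ : Perm I) (i : I) : (pm σ).e i = 0 := rfl
@[simp] theorem sw_s (i j : I) : (sw i j).s = swap i j := rfl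
@[simp] theorem sw_e (i j k : I) : (sw i j).e k = 0 := rfl
@[simp] theorem v_s (i j : I) : (v i j).s = 1 := rfl
theorem v_e (i j k : I) : (v i j).e k = (if k = i then 1 else 0) + (if k = j then 1 else 0) := rfl
@[simp] theorem vp_s (x : D) : (vp x).s = 1 := rfl
@[simp] theorem vp_e (x : D) : (vp x).e = x.e := rfl
@[simp] theorem z0_s : z0.s = 1 := rfl
theorem z0_e (i : I) : z0.e i = if i = 8 then 0 else 1 := rfl
@[simp] theorem zk_s (k : I) : (zk k).s = 1 := rfl
theorem zk_e (k i : I) : (zk k).e i = if i = k then 0 else 1 := rfl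
@[simp] theorem tw_s (δ : I → Z2) (x : D) : (tw δ x).s = x.s := rfl
theorem tw_e (δ : I → Z2) (x : D) (i : I) : (tw δ x).e i = x.e i + δ i + δ (x.s i) := rfl
theorem pow_s (x : D) (n : ℕ) : (x ^ n).s = x.s ^ n := map_pow sh x n

variable {x y : D} {a b c d i j k : I}

theorem pm_vp (x : D) : pm x.s * vp x = x := D.ext' (mul_one _) fun i => by simp
theorem zk_comm (h : x.s k = k) : x * zk k = zk k * x := D.ext' (by simp) fun i => by
  have : x.s i = k ↔ i = k := ⟨fun e => x.s.injective (e.trans h.symm), fun e => e ▸ h⟩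
  simp [add_comm, zk_e, this]
theorem z0_comm (h : x.s 8 = 8) : x * z0 = z0 * x := zk_comm h
theorem V_comm (h : x.s = 1) (k : y.s = 1) : x * y = y * x :=
  D.ext' (by simp [h, k]) fun i => by simp [h, k, add_comm]
theorem V_sq (h : x.s = 1) : x * x = 1 := D.ext' (by simp [h]) fun i => by simp [h, aa]
theorem sw_sq (i j : I) : sw i j * sw i j = 1 := by rw [sw, ← map_mul, swap_mul_self, map_one]
theorem cj_e (x : D) (h : y.s k = k) : (x * y * x⁻¹).e (x.s k) = y.e k := by
  simp only [D.mul_e, D.inv_e, D.inv_s, Perm.coe_inv, symm_apply_apply, h]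
  linear_combination (exp := 1) aa (x.e k)
theorem cj_V (x : D) (h : y.s = 1) : x * y * x⁻¹ = pm x.s * y * (pm x.s)⁻¹ := D.ext' rfl fun i => by
  obtain ⟨k, rfl⟩ := x.s.surjective i
  exact (cj_e x (by simp [h])).trans (cj_e (pm x.s) (by simp [h])).symm
theorem cj_v (x : D) (i j : I) : x * v i j * x⁻¹ = v (x.s i) (x.s j) := D.ext' (by simp) fun l => by
  obtain ⟨k, rfl⟩ := x.s.surjective l
  rw [cj_e x rfl]; simp [v_e]
theorem cj_zk (x : D) (k : I) : x * zk k * x⁻¹ = zk (x.s k) := D.ext' (by simp) fun l => by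
  obtain ⟨i, rfl⟩ := x.s.surjective l
  rw [cj_e x rfl]; simp [zk_e]
theorem zk_inj (e : zk a = zk b) : a = b := by revert a b; decide +kernel
theorem comm_zk (h : x * zk k = zk k * x) : x.s k = k := zk_inj (by rw [← cj_zk, h, mul_inv_cancel_right])
theorem cj_sw (σ : Perm I) (i j : I) : pm σ * sw i j * (pm σ)⁻¹ = sw (σ i) (σ j) := by
  rw [sw, sw, ← map_inv, ← map_mul, ← map_mul, swap_apply_apply]
theorem v_symm (i j : I) : v i j = v j i := D.ext' rfl fun _ => add_comm _ _
theorem v_self (i : I) : v i i = 1 := D.ext' rfl fun _ => aa _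
theorem v_mul (i j k : I) : v i j * v i k = v j k := D.ext' (mul_one _) fun l => by
  simp only [D.mul_e, v_e, v_s, Perm.one_apply]
  linear_combination (exp := 1) aa (if l = i then 1 else 0)

theorem mem_M : i ∈ M x ↔ x.s i ≠ i ∨ x.e i ≠ 0 := by simp [M]
theorem nmem_M : i ∉ M x ↔ x.s i = i ∧ x.e i = 0 := by simp [M]
theorem mem_M_cj (x : D) : x.s k ∈ M (x * y * x⁻¹) ↔ k ∈ M y := by
  rw [← not_iff_not, nmem_M, nmem_M]
  have : (x * y * x⁻¹).s (x.s k) = x.s k ↔ y.s k = k := by simp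
  rw [this]
  exact and_congr_right fun h => by rw [cj_e x h]
theorem w_cj (x y : D) : w (x * y * x⁻¹) = w y :=
  (card_bij (fun k _ => x.s k) (fun _ h => (mem_M_cj x).2 h) (fun _ _ _ _ e => x.s.injective e) fun i h => by
    obtain ⟨k, rfl⟩ := x.s.surjective i
    exact ⟨k, (mem_M_cj x).1 h, rfl⟩).symm
theorem M_comm (h : x * y = y * x) : x.s k ∈ M y ↔ k ∈ M y := by
  have := mem_M_cj (y := y) (k := k) x
  rwa [h, mul_inv_cancel_right] at this
theorem M_self : x.s k ∈ M x ↔ k ∈ M x := M_comm rfl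
theorem nM_mul (h : i ∉ M x) (k : i ∉ M y) : i ∉ M (x * y) := by
  rw [nmem_M] at *; simp [h, k]
theorem M_mul : M (x * y) ⊆ M x ∪ M y := fun i h => by
  by_contra k
  rw [mem_union, not_or] at k
  exact nM_mul k.1 k.2 h
theorem M_inv : i ∈ M x⁻¹ ↔ i ∈ M x := by
  rw [← not_iff_not, nmem_M, nmem_M, D.inv_s, Perm.inv_eq_iff_eq, eq_comm]
  exact and_congr_right fun h => by rw [D.inv_e, Perm.inv_eq_iff_eq.2 h.symm]
theorem M_mul_r (h : i ∉ M x) : i ∈ M (x * y) ↔ i ∈ M y := by
  rw [← not_iff_not]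
  exact ⟨fun k => by simpa using nM_mul (mt M_inv.1 h) k, nM_mul h⟩
theorem M_mul_l (h : i ∉ M y) : i ∈ M (x * y) ↔ i ∈ M x := by
  rw [← M_inv, mul_inv_rev, M_mul_r (mt M_inv.1 h), M_inv]
theorem eq_one (h : ∀ i, i ∉ M x) : x = 1 :=
  D.ext' (Equiv.ext fun i => (nmem_M.1 (h i)).1) fun i => (nmem_M.1 (h i)).2
theorem w_zero (h : w x = 0) : x = 1 := eq_one fun i k => by simp [card_eq_zero.1 h] at k
theorem w_one : w 1 = 0 := by decide
theorem w_dj (h : ∀ i ∈ M x, i ∉ M y) : w (x * y) = w x + w y := by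
  rw [w, w, w, ← card_union_of_disjoint (disjoint_left.2 h)]
  refine congrArg _ (M_mul.antisymm (union_subset (fun i k => (M_mul_l (h i k)).2 k) fun i k =>
    (M_mul_r fun l => h i l k).2 k))
theorem comm_dj (h : ∀ i ∈ M x, i ∉ M y) : x * y = y * x := by
  have k : ∀ {x y : D} {i}, (∀ i ∈ M x, i ∉ M y) → i ∉ M y →
      (x * y).s i = (y * x).s i ∧ (x * y).e i = (y * x).e i := fun {x y i} h k => by
    have k2 : x.s i ∉ M y := fun l => by
      by_cases m : i ∈ M x
      · exact h _ (M_self.2 m) l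
      · exact k ((nmem_M.1 m).1 ▸ l)
    rw [nmem_M] at k k2
    simp [k, k2]
  have k' : ∀ i, (x * y).s i = (y * x).s i ∧ (x * y).e i = (y * x).e i := fun i => by
    by_cases m : i ∈ M y
    · exact (k (fun i a b => h i b a) fun l => h i l m).imp .symm .symm
    · exact k h m
  exact D.ext' (Equiv.ext fun i => (k' i).1) fun i => (k' i).2
theorem mem_M_v (h : a ≠ b) : i ∈ M (v a b) ↔ i = a ∨ i = b := by
  revert a b i; decide +kernel
theorem w_v (h : a ≠ b) : w (v a b) = 2 := by revert a b; decide +kernel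
theorem w_sw (h : a ≠ b) : w (sw a b) = 2 := by revert a b; decide +kernel
theorem nM_v (h : i ≠ a) (k : i ≠ b) : i ∉ M (v a b) := by simp [nmem_M, v_e, h, k]
theorem nM_sw (h : i ≠ a) (k : i ≠ b) : i ∉ M (sw a b) := by simp [nmem_M, swap_apply_of_ne_of_ne h k]
theorem w_zk (k : I) : w (zk k) = 8 := by revert k; decide +kernel
theorem w_z0 : w z0 = 8 := w_zk 8
theorem w_le (x : D) : w x ≤ 9 := card_le_univ _
theorem M_tw (δ : I → Z2) (x : D) : M (tw δ x) = M x := Finset.ext fun i => by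
  rw [← not_iff_not, nmem_M, nmem_M]
  exact and_congr_right fun h => by rw [tw_e, show x.s i = i from h, add_assoc, aa, add_zero]
theorem tw_tw (δ : I → Z2) (x : D) : tw δ (tw δ x) = x := D.ext' rfl fun i => by
  simp only [tw_e, tw_s]
  linear_combination (exp := 1) aa (δ i) + aa (δ (x.s i))
theorem tw_V (δ : I → Z2) (h : x.s = 1) : tw δ x = x := D.ext' rfl fun i => by simp [tw_e, h, add_assoc, aa]

theorem mem_Mz : i ∈ M (x * zk k) ↔ x.s i ≠ i ∨ (x.e i = 0 ↔ i ≠ k) := by
  rw [mem_M]; simp only [D.mul_e, D.mul_s, zk_s, zk_e, mul_one, Perm.one_apply]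
  refine or_congr_right ?_
  generalize x.e i = t
  split_ifs with e <;> simp only [e, ne_eq, not_true, not_false_iff, iff_true, iff_false] <;> revert t <;> decide
theorem w_add (h : x.s k = k) :
    w x + w (x * zk k) = 8 + (univ.filter fun i => x.s i ≠ i).card + 2 * (x.e k).val := by
  have e : ∀ i, ((if i ∈ M x then 1 else 0) + if i ∈ M (x * zk k) then 1 else 0 : ℕ) =
      (if i = k then 2 * (x.e k).val else 1) + if x.s i ≠ i then 1 else 0 := fun i => by
    simp only [mem_Mz, mem_M (x := x)]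
    by_cases p : i = k
    · subst p
      simp only [h, ne_eq, not_true, false_or, iff_false, if_true, if_false]
      generalize x.e i = t; revert t; decide
    · by_cases q : x.s i = i <;> by_cases r : x.e i = 0 <;> simp [p, q, r]
  have := sum_congr (rfl : (univ : Finset I) = univ) fun i _ => e i
  rw [sum_add_distrib, sum_add_distrib, ← card_filter, ← card_filter, ← card_filter, filter_mem_eq_inter,
    filter_mem_eq_inter, univ_inter, univ_inter, ← add_sum_erase _ _ (mem_univ k), if_pos rfl,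
    sum_congr rfl fun i m => if_neg (ne_of_mem_erase m), sum_const, card_erase_of_mem (mem_univ k)] at this
  simp only [w, this, card_univ, Fintype.card_fin, smul_eq_mul]; omega
theorem V_iff (h : x.s k = k) : w x + w (x * zk k) = 8 ↔ x.s = 1 ∧ x.e k = 0 := by
  rw [w_add h, add_assoc, add_eq_left, add_eq_zero, card_eq_zero, filter_eq_empty_iff, Equiv.ext_iff]; simp
theorem V_eight (h : x.s = 1) (k : w x = 8) : ∃ k, x = zk k := by
  obtain ⟨s, e, t⟩ := x
  obtain rfl : s = 1 := h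
  revert e; decide +kernel

theorem supp2 (n : a ≠ b) (h : ∀ i, i ≠ a → i ≠ b → i ∉ M x) :
    x = 1 ∨ x = v a b ∨ x = sw a b ∨ x = sw a b * v a b := by
  have k : ∀ y : D, (∀ i, i ≠ a → i ≠ b → i ∉ M y) → y.s a = a → y = 1 ∨ y = v a b := fun y h ha => by
    have s : y.s = 1 := Equiv.ext fun i => by
      by_cases e : i = a
      · exact e ▸ ha
      by_cases e' : i = b
      · by_contra f
        refine h _ (fun g => e (y.s.injective (g.trans ha.symm))) (e' ▸ f) (M_self.2 (mem_M.2 (.inl f)))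
      exact (nmem_M.1 (h i e e')).1
    have t := y.h
    rw [← sum_subset (subset_univ {a, b}) fun i _ m => (nmem_M.1 (h i (fun e => m (by simp [e]))
      fun e => m (by simp [e]))).2, sum_pair n] at t
    have u : y.e b = y.e a := by linear_combination (exp := 1) t - aa (y.e a)
    refine (eq_or_ne (y.e a) 0).imp (fun e => ?_) fun e => ?_ <;> refine D.ext' s fun i => ?_ <;>
      by_cases e1 : i = a <;> by_cases e2 : i = b
    all_goals first | exact absurd (e1.symm.trans e2) n | skip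
    · simp [e1, e]
    · simp [e2, u, e]
    · exact (nmem_M.1 (h i e1 e2)).2
    · simp [e1, ne0.1 e, v_e, n]
    · simp [e2, u, ne0.1 e, v_e, n.symm]
    · simp [(nmem_M.1 (h i e1 e2)).2, v_e, e1, e2]
  by_cases e : x.s a = a
  · exact (k x h e).imp_right .inl
  have e2 : x.s a = b := by_contra fun f => h _ e f (M_self.2 (mem_M.2 (.inl e)))
  refine .inr (.inr ((k (sw a b * x) (fun i p q => nM_mul (nM_sw p q) (h i p q)) (by simp [e2])).imp
    (fun f => ?_) fun f => ?_)) <;> rw [← one_mul x, ← sw_sq a b, mul_assoc, f]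
  exact mul_one _
theorem w2 (h : w x = 2) : ∃ a b, a ≠ b ∧ (x = v a b ∨ x = sw a b ∨ x = sw a b * v a b) := by
  obtain ⟨a, b, n, e⟩ := card_eq_two.1 h
  exact ⟨a, b, n, (supp2 n fun i p q => by simp [e, p, q]).resolve_left fun f => by simp [f, w_one] at h⟩
theorem w2V (s : x.s = 1) (h : w x = 2) : ∃ a b, a ≠ b ∧ x = v a b := by
  obtain ⟨a, b, n, e | e | e⟩ := w2 h
  · exact ⟨a, b, n, e⟩
  all_goals exact absurd (by simpa [e] using s) n
theorem v_inj (n : a ≠ b) (e : v a b = v c d) : c = a ∧ d = b ∨ c = b ∧ d = a := by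
  revert a b c d; decide +kernel
theorem comm_v (n : a ≠ b) (h : x * v a b = v a b * x) : x.s a = a ∧ x.s b = b ∨ x.s a = b ∧ x.s b = a :=
  v_inj n (by rw [← cj_v, h, mul_inv_cancel_right])

end H10.K9
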