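import Cfsg.Agent.H10.K9.B
import Cfsg.Agent.H19.Amb3

/-! Groups with a Sylow 2-subgroup of the Weyl group of type `D₉`. -/

set_option autoImplicit false
set_option linter.unusedSectionVars false

namespace H10.K9
open Equiv Subgroup H19

variable {x y r : D} {a b c d : I} {J : Finset I}

def U (J : Finset I) (x : D) : Prop := x.s = 1 ∧ M x ⊆ J
theorem U.mul (h : U J x) (k : U J y) : U J (x * y) :=
  ⟨by simp [h.1, k.1], M_mul.trans (Finset.union_subset h.2 k.2)⟩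
theorem U.v (h : a ∈ J) (k : b ∈ J) : U J (v a b) := ⟨rfl, fun i m => by
  by_contra u
  exact nM_v (fun e : i = a => u (e ▸ h)) (fun e : i = b => u (e ▸ k)) m⟩

theorem perm_of' {f : D → D} (ha : a ∈ J) (hb : b ∈ J) (hc : c ∈ J) (ab : b ≠ a) (ac : c ≠ a) (bc : b ≠ c)
    (mu : ∀ x y, U J x → U J y → f (x * y) = f x * f y) (hw : ∀ x, U J x → (f x).s = 1 ∧ w (f x) = w x) :
    ∃ σ : Perm I, ∀ x, U J x → f x = pm σ * x * (pm σ)⁻¹ := by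
  obtain ⟨σ, h⟩ := perm_of (θ := fun j => f (v a j)) ha hb hc ab ac bc
    (fun j hj n => ⟨(hw _ (U.v ha hj)).1, (hw _ (U.v ha hj)).2.trans (w_v n.symm)⟩)
    (fun j hj k hk _ _ n => by rw [← mu _ _ (U.v ha hj) (U.v ha hk), v_mul, (hw _ (U.v hj hk)).2, w_v n])
    fun j hj n e => by
      have k := (hw _ ((U.v hb hc).mul (U.v ha hj))).2
      rw [mu _ _ (U.v hb hc) (U.v ha hj), ← v_mul a b c, mu _ _ (U.v ha hb) (U.v ha hc), e,
        V_sq (hw _ (U.v ha hj)).1, w_one, v_mul] at k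
      have := w_zero k.symm
      rw [mul_eq_one_iff_eq_inv, inv_eq_of_mul_eq_one_right (V_sq (v_s a j))] at this
      exact (v_inj bc this).elim (ab ·.1.symm) (ac ·.1.symm)
  have o : f 1 = 1 := w_zero (hw 1 ⟨rfl, fun _ h => absurd h (by simp [nmem_M])⟩).2
  let L : Subgroup D := ⟨⟨⟨{x | U J x ∧ f x = pm σ * x * (pm σ)⁻¹}, fun h k =>
    ⟨h.1.mul k.1, by rw [mu _ _ h.1 k.1, h.2, k.2, conj_mul]⟩⟩, ⟨rfl, fun _ h => absurd h (by simp [nmem_M])⟩,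
    by simp [o]⟩, fun h => (inv_eq_of_mul_eq_one_right (V_sq h.1.1)).symm ▸ h⟩
  have k : ∀ j ∈ J, v a j ∈ L := fun j hj => ⟨U.v ha hj, by
    by_cases e : j = a
    · simp [e, v_self, o]
    · exact (h j hj e).trans (cj_v (pm σ) a j).symm⟩
  exact ⟨σ, fun x h => (genV (L := L) (fun i p j q => v_mul a i j ▸ mul_mem (k i p) (k j q)) h.1 h.2).2⟩

theorem cenV (h : ∀ a b, x * v a b = v a b * x) : x.s = 1 := Equiv.ext fun i => by
  obtain ⟨j, k, h1, h2, h3⟩ := (by decide : ∀ i : I, ∃ j k, i ≠ j ∧ i ≠ k ∧ j ≠ k) i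
  exact (comm_v h1 (h i j)).elim (·.1) fun e => (comm_v h2 (h i k)).elim (·.1) fun f => absurd (e.1.symm.trans f.1) h3

theorem cen4 (h1 : x * v 0 1 = v 0 1 * x) (h2 : x * v 2 3 = v 2 3 * x) (h3 : x * v 4 5 = v 4 5 * x)
    (h4 : x * v 6 7 = v 6 7 * x) : x ^ 4 = 1 := by
  have k : ∀ {a b}, a ≠ b → x * v a b = v a b * x → x.s (x.s a) = a ∧ x.s (x.s b) = b := fun n e => by
    rcases comm_v n e with ⟨p, q⟩ | ⟨p, q⟩ <;> simp [p, q]
  rw [show x ^ 4 = x * x * (x * x) by simp [pow_succ, mul_assoc]]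
  have t : ∀ i, i ≠ 8 → x.s (x.s i) = i := fun i n => by
    fin_cases i
    exacts [(k (by decide) h1).1, (k (by decide) h1).2, (k (by decide) h2).1, (k (by decide) h2).2,
      (k (by decide) h3).1, (k (by decide) h3).2, (k (by decide) h4).1, (k (by decide) h4).2, absurd rfl n]
  refine V_sq (Equiv.ext fun i => ?_)
  by_cases e : i = 8
  · by_contra n
    exact n ((x.s * x.s).injective (t _ (e ▸ n)))
  · exact t i e

theorem sub2 (e : r * x = x * r) (h1 : w x = 2) (h2 : w r = 2) (h3 : w (x * r) = 2) (s : r.s ≠ 1) : M x ⊆ M r := by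
  obtain ⟨i, hi⟩ : ∃ i, r.s i ≠ i := by simpa [Equiv.ext_iff] using s
  have m : i ∈ M r := mem_M.2 (.inl hi)
  have k : {i, r.s i} = M r := Finset.eq_of_subset_of_card_le (by simp [Finset.insert_subset_iff, m, M_self])
    (by rw [Finset.card_pair hi.symm]; exact h2.le)
  by_cases t : i ∈ M x
  · exact (Finset.eq_of_subset_of_card_le (s := M r) (t := M x)
      (k ▸ by simp [Finset.insert_subset_iff, t, M_comm e]) (h1.trans h2.symm).le).ge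
  · rw [w_dj fun l p q => by
      rw [← k, Finset.mem_insert, Finset.mem_singleton] at q
      exact t (q.elim (· ▸ p) fun u => (M_comm e).1 (u ▸ p))] at h3
    omega

variable {X : Type*} [Group X] {T : Subgroup D} {j : T →* X} {g n : X} {σ τ : Perm I}

open Classical in
noncomputable def ex (j : T →* X) (x : D) : X := if h : x ∈ T then j ⟨x, h⟩ else 1
theorem ex_eq (h : x ∈ T) : ex j x = j ⟨x, h⟩ := dif_pos h
theorem ex_mul (h : x ∈ T) (k : y ∈ T) : ex j (x * y) = ex j x * ex j y := by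
  rw [ex_eq h, ex_eq k, ex_eq (mul_mem h k), ← map_mul]; rfl
theorem ex_one : ex j 1 = 1 := (ex_eq (one_mem T)).trans (map_one j)
theorem ex_inv (h : x ∈ T) : ex j x⁻¹ = (ex j x)⁻¹ := by
  rw [ex_eq h, ex_eq (inv_mem h), ← map_inv]; rfl
theorem ex_cj (h : x ∈ T) (k : y ∈ T) : ex j x * ex j y * (ex j x)⁻¹ = ex j (x * y * x⁻¹) := by
  rw [ex_mul (mul_mem h k) (inv_mem h), ex_mul h k, ex_inv h]
theorem mem_rg : g ∈ j.range ↔ ∃ x ∈ T, g = ex j x :=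
  ⟨fun ⟨x, e⟩ => ⟨x, x.2, e ▸ (ex_eq x.2).symm⟩, fun ⟨_, h, e⟩ => ⟨_, (e.trans (ex_eq h)).symm⟩⟩
def AA (j : T →* X) : Subgroup X := (sh.ker.subgroupOf T).map j
def Act (j : T →* X) (n : X) (σ : Perm I) : Prop :=
  ∀ x, x.s = 1 → n * ex j x * n⁻¹ = ex j (pm σ * x * (pm σ)⁻¹)

structure Sy (j : T →* X) : Prop where
  V : ∀ x : D, x.s = 1 → x ∈ T
  d : sw 0 1 ∈ T ∧ sw 2 3 ∈ T ∧ sw 4 5 ∈ T ∧ sw 6 7 ∈ T
  inj : Function.Injective j
  syl : Syl 2 j.range ⊤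
  ty : ∀ x ∈ T, ∀ y ∈ T, x * x = 1 → IsConj (ex j x) (ex j y) → w x = w y

theorem Act.mul (h : Act j g σ) (k : Act j n τ) : Act j (g * n) (σ * τ) := fun x s => by
  rw [show g * n * ex j x * (g * n)⁻¹ = g * (n * ex j x * n⁻¹) * g⁻¹ by group, k x s, h _ (by simp [s])]
  congr 1; simp [mul_assoc]
theorem Act.inv (h : Act j g σ) : Act j g⁻¹ σ⁻¹ := fun x s => by
  have := h (pm σ⁻¹ * x * (pm σ⁻¹)⁻¹) (by simp [s])
  rw [show pm σ * (pm σ⁻¹ * x * (pm σ⁻¹)⁻¹) * (pm σ)⁻¹ = x by simp [mul_assoc]] at this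
  rw [← this]; group
theorem Act.v (h : Act j g σ) (a b : I) : g * ex j (v a b) * g⁻¹ = ex j (v (σ a) (σ b)) :=
  (h _ rfl).trans (congrArg _ (cj_v _ a b))

namespace Sy
variable [Finite X] (h : Sy j)
include h

theorem eq (hx : x ∈ T) (hy : y ∈ T) (e : ex j x = ex j y) : x = y :=
  congrArg Subtype.val (h.inj ((ex_eq hx).symm.trans (e.trans (ex_eq hy))))
theorem memA : g ∈ AA j ↔ ∃ x, x.s = 1 ∧ g = ex j x :=
  ⟨fun ⟨x, m, e⟩ => ⟨x, m, e ▸ (ex_eq x.2).symm⟩, fun ⟨x, s, e⟩ => ⟨⟨x, h.V x s⟩, s, (e.trans (ex_eq _)).symm⟩⟩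
theorem mA (s : x.s = 1) : ex j x ∈ AA j := h.memA.2 ⟨x, s, rfl⟩
theorem ofA (hx : x ∈ T) (m : ex j x ∈ AA j) : x.s = 1 :=
  let ⟨y, s, e⟩ := h.memA.1 m; h.eq hx (h.V y s) e ▸ s
theorem lS : AA j ≤ j.range := map_le_range _ _
theorem pA : PG 2 (AA j) := h.syl.pi.of_le h.lS
theorem ab : Ab (AA j) := comm_iff_le_cent.2 fun p hp q hq => by
  obtain ⟨x, s, rfl⟩ := h.memA.1 hp
  obtain ⟨y, t, rfl⟩ := h.memA.1 hq
  rw [← ex_mul (h.V _ t) (h.V _ s), V_comm t s, ex_mul (h.V _ s) (h.V _ t)]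
theorem actT (hx : x ∈ T) : Act j (ex j x) x.s := fun y s => by rw [ex_cj hx (h.V y s), cj_V x s]
theorem uq (k : Act j g σ) (l : Act j g τ) : σ = τ := by
  have := cenV (x := pm (τ⁻¹ * σ)) fun a b => mul_inv_eq_iff_eq_mul.1 ((cj_v _ a b).trans (h.eq (h.V _ rfl)
    (h.V _ rfl) (((l.inv.mul k).v a b).symm.trans (by simp))))
  exact (inv_mul_eq_one.1 this).symm
theorem nrm (k : Act j g σ) : g ∈ N(AA j) := mem_norm_of_cj_le fun p hp => by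
  obtain ⟨q, hq, rfl⟩ := mem_cj'.1 hp
  obtain ⟨x, s, rfl⟩ := h.memA.1 hq
  exact k x s ▸ h.mA (by simp [s])

theorem th (k : cj g (AA j) ≤ j.range) : ∃ f : D → D, (∀ x, x.s = 1 → f x ∈ T ∧ g * ex j x * g⁻¹ = ex j (f x) ∧
    w (f x) = w x) ∧ ∀ x y, x.s = 1 → y.s = 1 → f (x * y) = f x * f y := by
  have : ∀ x : D, ∃ y, x.s = 1 → y ∈ T ∧ g * ex j x * g⁻¹ = ex j y := fun x => by
    by_cases s : x.s = 1
    · obtain ⟨y, m⟩ := mem_rg.1 (k (conj_mem_cj.2 (h.mA s)))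
      exact ⟨y, fun _ => m⟩
    · exact ⟨1, fun e => absurd e s⟩
  choose f hf using this
  refine ⟨f, fun x s => ⟨(hf x s).1, (hf x s).2, (h.ty _ (h.V x s) _ (hf x s).1 (V_sq s)
    (isConj_iff.2 ⟨g, (hf x s).2⟩)).symm⟩, fun x y s t => ?_⟩
  have u : (x * y).s = 1 := by simp [s, t]
  refine h.eq (hf _ u).1 (mul_mem (hf x s).1 (hf y t).1) ?_
  rw [ex_mul (hf x s).1 (hf y t).1, ← (hf _ u).2, ← (hf x s).2, ← (hf y t).2, conj_mul, ex_mul (h.V x s) (h.V y t)]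

/-- weak closure -/
theorem wc (k : cj g (AA j) ≤ j.range) : cj g (AA j) = AA j := by
  obtain ⟨f, h1, h2⟩ := h.th k
  refine cj_of_mem_norm (mem_norm_of_cj_le fun p hp => ?_)
  obtain ⟨q, hq, rfl⟩ := mem_cj'.1 hp
  obtain ⟨x, s, rfl⟩ := h.memA.1 hq
  let L : Subgroup D := ⟨⟨⟨{x | x.s = 1 ∧ (f x).s = 1}, fun p q => ⟨by simp [p.1, q.1], by
    simp [h2 _ _ p.1 q.1, p.2, q.2]⟩⟩, rfl, by rw [w_zero (h1 1 rfl).2.2]; rfl⟩,
    fun h => (inv_eq_of_mul_eq_one_right (V_sq h.1)).symm ▸ h⟩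
  refine (h1 x s).2.1 ▸ h.mA (genV (L := L) (J := .univ) (fun a _ b _ => ?_) s (Finset.subset_univ _)).2
  by_cases n : a = b
  · exact n ▸ v_self a ▸ one_mem L
  refine ⟨rfl, by_contra fun e => ?_⟩
  have k : ∀ c, a ≠ c → c ≠ b → M (f (v a c)) ⊆ M (f (v a b)) := fun c p q => sub2
    (by rw [← h2 _ _ rfl rfl, ← h2 _ _ rfl rfl, V_comm rfl rfl]) ((h1 _ rfl).2.2.trans (w_v p))
    ((h1 _ rfl).2.2.trans (w_v n)) (by rw [← h2 _ _ rfl rfl, v_mul, (h1 _ rfl).2.2, w_v q]) e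
  obtain ⟨c, d, l, n1, n2, n3, n4, n5, n6, n7⟩ := (by decide +kernel : ∀ a b : I, a ≠ b → ∃ c d l, a ≠ c ∧ c ≠ b ∧
    a ≠ d ∧ d ≠ b ∧ a ≠ l ∧ l ≠ b ∧ w (v a b * v a c * (v a d * v a l)) = 4) a b n
  have := Finset.card_le_card (M_mul.trans (Finset.union_subset (M_mul.trans (Finset.union_subset le_rfl
    (k c n1 n2))) (M_mul.trans (Finset.union_subset (k d n3 n4) (k l n5 n6)))))
  rw [← h2 _ _ rfl rfl, ← h2 _ _ rfl rfl, ← h2 _ _ (by simp) (by simp)] at this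
  change w _ ≤ w _ at this
  rw [(h1 _ (by simp)).2.2, (h1 _ rfl).2.2, n7, w_v n] at this
  omega

theorem act (k : g ∈ N(AA j)) : ∃ σ, Act j g σ := by
  obtain ⟨f, h1, h2⟩ := h.th ((cj_of_mem_norm k).le.trans h.lS)
  obtain ⟨σ, e⟩ := perm_of' (J := .univ) (a := 0) (b := 1) (c := 2) (f := f) (by simp) (by simp) (by simp)
    (by decide) (by decide) (by decide) (fun x y p q => h2 x y p.1 q.1) fun x p => ⟨h.ofA (h1 x p.1).1
      ((h1 x p.1).2.1 ▸ conj_mem_of_norm k (h.mA p.1)), (h1 x p.1).2.2⟩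
  exact ⟨σ, fun x s => e x ⟨s, Finset.subset_univ _⟩ ▸ (h1 x s).2.1⟩

theorem ctl (s : x.s = 1) (t : y.s = 1) (e : g * ex j x * g⁻¹ = ex j y) :
    ∃ n ∈ N(AA j), n * ex j x * n⁻¹ = ex j y := by
  have k : ∀ {x : D}, x.s = 1 → AA j ≤ C[ex j x] := fun s => (comm_iff_le_cent.1 h.ab).trans (cent_le_cent1 (h.mA s))
  obtain ⟨Q, hQ, AQ⟩ := h.pA.exists_syl (k t)
  obtain ⟨c, hc, l⟩ := hQ.scj_le (e ▸ cj_cent1 g _ ▸ cj_mono g (k s)) (h.pA.J g)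
  obtain ⟨u, -, m⟩ := h.syl.scj_le le_top hQ.pi
  refine ⟨c * g, mem_norm_iff_cj.2 (cj_inj (g := u).1 ?_), by
    rw [show c * g * ex j x * (c * g)⁻¹ = c * (g * ex j x * g⁻¹) * c⁻¹ by group, e, mem_cent1.1 hc,
      mul_inv_cancel_right]⟩
  rw [h.wc ((cj_mono u AQ).trans m), cj_cj, h.wc (by rw [cj_mul, cj_mul]; exact (cj_mono u l).trans m)]

theorem all (fus : ∀ a b, a ≠ b → IsConj (ex j (v 0 1)) (ex j (v a b))) (σ : Perm I) : ∃ n, Act j n σ := by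
  let R : Subgroup (Perm I) := ⟨⟨⟨{σ | ∃ n, Act j n σ}, fun ⟨_, p⟩ ⟨_, q⟩ => ⟨_, p.mul q⟩⟩, 1, fun x _ => by simp⟩,
    fun ⟨_, p⟩ => ⟨_, p.inv⟩⟩
  refine (Perm.closure_isSwap.ge.trans ((closure_le R).2 ?_)) (mem_top σ)
  rintro _ ⟨a, b, n, rfl⟩
  obtain ⟨g, e⟩ := isConj_iff.1 (fus a b n)
  obtain ⟨g, m, e⟩ := h.ctl rfl rfl e
  obtain ⟨τ, k⟩ := h.act m
  have : swap a b = τ * swap 0 1 * τ⁻¹ := by
    rw [← swap_apply_apply]
    rcases v_inj n (h.eq (h.V _ rfl) (h.V _ rfl) (e.symm.trans (k.v 0 1))) with ⟨rfl, rfl⟩ | ⟨rfl, rfl⟩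
    exacts [rfl, swap_comm _ _]
  exact ⟨_, this ▸ (k.mul (h.actT h.d.1)).mul k.inv⟩

end Sy
end H10.K9
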